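import Mathlib

/-!
# Central extensions of elementary abelian groups with the same squaring map are isomorphic
-/

set_option autoImplicit false
set_option linter.style.haveILetI false
set_option linter.unusedSectionVars false
set_option linter.unusedVariables false

namespace Cfsg.Agent.Lib.PGroup.SuzukiTwo

open scoped commutatorElement

theorem comm_mem_of_central {G : Type*} [Group G] {D : Subgroup G}
    (hDc : ∀ d ∈ D, ∀ g : G, g * d = d * g) {u v : G} (hu : u * u ∈ D) (hv : v * v ∈ D)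
    (huv : u * v * (u * v) ∈ D) : ⁅u, v⁆ ∈ D := by
  have h1 : ⁅u, v⁆ = (u * v * (u * v)) * (u * u)⁻¹ * (v * v)⁻¹ := by
    have hb : ∀ g : G, g * (v * v)⁻¹ = (v * v)⁻¹ * g := fun g => hDc _ (D.inv_mem hv) g
    have ha : ∀ g : G, g * (u * u)⁻¹ = (u * u)⁻¹ * g := fun g => hDc _ (D.inv_mem hu) g
    have e1 : ⁅u, v⁆ = u * v * ((u * u)⁻¹ * u) * ((v * v)⁻¹ * v) := by
      simp only [commutatorElement_def]; group
    generalize (u * u)⁻¹ = a at ha e1 ⊢
    generalize (v * v)⁻¹ = b at hb e1 ⊢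
    calc ⁅u, v⁆ = u * v * (a * u) * (b * v) := e1
      _ = (u * v * a) * u * (b * v) := by group
      _ = a * (u * v) * u * (b * v) := by rw [ha (u * v)]
      _ = a * ((u * v * u) * b) * v := by group
      _ = a * (b * (u * v * u)) * v := by rw [hb (u * v * u)]
      _ = a * (b * (u * v * (u * v))) := by group
      _ = a * ((u * v * (u * v)) * b) := by rw [hb]
      _ = (a * (u * v * (u * v))) * b := by group
      _ = ((u * v * (u * v)) * a) * b := by rw [ha]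
  rw [h1]
  exact D.mul_mem (D.mul_mem huv (D.inv_mem hu)) (D.inv_mem hv)

/-- A complement modulo `D` in a group `E` with `E / D` elementary abelian. -/
theorem exists_complement {G : Type*} [Group G] [Finite G] (E D Z' : Subgroup G) (hDE : D ≤ E)
    (hZE : Z' ≤ E) (hDc : ∀ d ∈ D, ∀ g : G, g * d = d * g) (hsqE : ∀ e ∈ E, e * e ∈ D)
    (hDZ : ∀ z ∈ D, z ∈ Z' → z = 1) :
    ∃ C : Subgroup G, D ≤ C ∧ C ≤ E ∧ (∀ z ∈ C, z ∈ Z' → z = 1) ∧ ∀ e ∈ E, ∃ z ∈ Z', e * z ∈ C := by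
  classical
  let 𝒮 : Set (Subgroup G) := {C | D ≤ C ∧ C ≤ E ∧ ∀ z ∈ C, z ∈ Z' → z = 1}
  have h𝒮 : 𝒮.Nonempty := ⟨D, le_rfl, hDE, hDZ⟩
  obtain ⟨C, hC⟩ := (Set.toFinite 𝒮).exists_maximal h𝒮
  obtain ⟨hDC, hCE, hCZ⟩ := hC.prop
  refine ⟨C, hDC, hCE, hCZ, ?_⟩
  intro e he
  by_contra hcon
  push Not at hcon
  have hcomm : ∀ u ∈ E, ∀ v ∈ E, ⁅u, v⁆ ∈ D := fun u hu v hv =>
    comm_mem_of_central hDc (hsqE u hu) (hsqE v hv) (hsqE _ (E.mul_mem hu hv))
  have hconj1 : ∀ c ∈ C, e⁻¹ * c * e ∈ C := by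
    intro c hc
    have h1 : ⁅c⁻¹, e⁻¹⁆ ∈ C := hDC (hcomm _ (E.inv_mem (hCE hc)) _ (E.inv_mem he))
    have h2 : e⁻¹ * c * e = c * ⁅c⁻¹, e⁻¹⁆ := by
      simp only [commutatorElement_def]; group
    rw [h2]
    exact C.mul_mem hc h1
  have hconj2 : ∀ c ∈ C, e * c * e⁻¹ ∈ C := by
    intro c hc
    have h1 : ⁅c⁻¹, e⁆ ∈ C := hDC (hcomm _ (E.inv_mem (hCE hc)) _ he)
    have h2 : e * c * e⁻¹ = c * ⁅c⁻¹, e⁆ := by
      simp only [commutatorElement_def]; group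
    rw [h2]
    exact C.mul_mem hc h1
  have hee : e * e ∈ C := hDC (hsqE e he)
  let C' : Subgroup G :=
    { carrier := {x | x ∈ C ∨ ∃ c ∈ C, x = e * c}
      one_mem' := Or.inl C.one_mem
      mul_mem' := by
        rintro a b (ha | ⟨c, hc, rfl⟩) (hb | ⟨c', hc', rfl⟩)
        · exact Or.inl (C.mul_mem ha hb)
        · right
          refine ⟨(e⁻¹ * a * e) * c', C.mul_mem (hconj1 a ha) hc', by group⟩
        · right
          exact ⟨c * b, C.mul_mem hc hb, by group⟩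
        · left
          have : e * c * (e * c') = (e * e) * ((e⁻¹ * c * e) * c') := by group
          rw [this]
          exact C.mul_mem hee (C.mul_mem (hconj1 c hc) hc')
      inv_mem' := by
        rintro a (ha | ⟨c, hc, rfl⟩)
        · exact Or.inl (C.inv_mem ha)
        · right
          refine ⟨(e⁻¹ * c⁻¹ * e) * (e * e)⁻¹,
            C.mul_mem (hconj1 _ (C.inv_mem hc)) (C.inv_mem hee), by group⟩ }
  have hCC' : C ≤ C' := fun x hx => Or.inl hx
  have hC'E : C' ≤ E := by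
    rintro x (hx | ⟨c, hc, rfl⟩)
    · exact hCE hx
    · exact E.mul_mem he (hCE hc)
  have hC'Z : ∀ z ∈ C', z ∈ Z' → z = 1 := by
    rintro z (hz | ⟨c, hc, rfl⟩) hzZ
    · exact hCZ z hz hzZ
    · exfalso
      apply hcon _ (Z'.inv_mem hzZ)
      have : e * (e * c)⁻¹ = e * c⁻¹ * e⁻¹ := by group
      rw [this]
      exact hconj2 _ (C.inv_mem hc)
  have hle : C' ≤ C := hC.le_of_ge ⟨hDC.trans hCC', hC'E, hC'Z⟩ hCC'
  have heC : e ∈ C := hle (Or.inr ⟨1, C.one_mem, by simp⟩)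
  exact hcon 1 Z'.one_mem (by simpa using heC)

/-- Central extensions with the same squaring map are isomorphic. -/
theorem iso_of_squares {P A F : Type*} [Group P] [Group A] [Finite P] [Finite A] [AddCommGroup F]
    (fP : P → F) (fA : A → F) (ZP : Subgroup P) (ZA : Subgroup A) (tP : P → F) (tA : A → F)
    (hfP : ∀ x y, fP (x * y) = fP x + fP y) (hfA : ∀ x y, fA (x * y) = fA x + fA y)
    (hfPs : Function.Surjective fP) (hfAs : Function.Surjective fA)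
    (hfPk : ∀ x, fP x = 0 ↔ x ∈ ZP) (hfAk : ∀ x, fA x = 0 ↔ x ∈ ZA)
    (hZPc : ∀ z ∈ ZP, ∀ g : P, g * z = z * g) (hZAc : ∀ z ∈ ZA, ∀ g : A, g * z = z * g)
    (htP : ∀ x ∈ ZP, ∀ y ∈ ZP, tP (x * y) = tP x + tP y)
    (htA : ∀ x ∈ ZA, ∀ y ∈ ZA, tA (x * y) = tA x + tA y)
    (htPs : ∀ u, ∃ x ∈ ZP, tP x = u) (htAs : ∀ u, ∃ x ∈ ZA, tA x = u)
    (htPi : ∀ x ∈ ZP, tP x = 0 → x = 1) (htAi : ∀ x ∈ ZA, tA x = 0 → x = 1)
    (hsqP : ∀ x, x * x ∈ ZP) (hsqA : ∀ a, a * a ∈ ZA)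
    (hsq : ∀ x a, fP x = fA a → tP (x * x) = tA (a * a)) : Nonempty (P ≃* A) := by
  classical
  have hfP1 : fP 1 = 0 := by
    have := hfP 1 1
    rw [mul_one] at this
    have h2 : fP 1 + fP 1 = fP 1 + 0 := by rw [add_zero]; exact this.symm
    exact add_left_cancel h2
  have hfA1 : fA 1 = 0 := by
    have := hfA 1 1
    rw [mul_one] at this
    have h2 : fA 1 + fA 1 = fA 1 + 0 := by rw [add_zero]; exact this.symm
    exact add_left_cancel h2
  have htP1 : tP 1 = 0 := by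
    have := htP 1 ZP.one_mem 1 ZP.one_mem
    rw [mul_one] at this
    have h2 : tP 1 + tP 1 = tP 1 + 0 := by rw [add_zero]; exact this.symm
    exact add_left_cancel h2
  have htA1 : tA 1 = 0 := by
    have := htA 1 ZA.one_mem 1 ZA.one_mem
    rw [mul_one] at this
    have h2 : tA 1 + tA 1 = tA 1 + 0 := by rw [add_zero]; exact this.symm
    exact add_left_cancel h2
  have hfPinv : ∀ x, fP x⁻¹ = - fP x := by
    intro x
    have := hfP x x⁻¹
    rw [mul_inv_cancel, hfP1] at this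
    exact (eq_neg_of_add_eq_zero_right this.symm)
  have hfAinv : ∀ x, fA x⁻¹ = - fA x := by
    intro x
    have := hfA x x⁻¹
    rw [mul_inv_cancel, hfA1] at this
    exact (eq_neg_of_add_eq_zero_right this.symm)
  have htPinv : ∀ x ∈ ZP, tP x⁻¹ = - tP x := by
    intro x hx
    have := htP x hx x⁻¹ (ZP.inv_mem hx)
    rw [mul_inv_cancel, htP1] at this
    exact (eq_neg_of_add_eq_zero_right this.symm)
  have htAinv : ∀ x ∈ ZA, tA x⁻¹ = - tA x := by
    intro x hx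
    have := htA x hx x⁻¹ (ZA.inv_mem hx)
    rw [mul_inv_cancel, htA1] at this
    exact (eq_neg_of_add_eq_zero_right this.symm)
  let E : Subgroup (P × A) :=
    { carrier := {z | fP z.1 = fA z.2}
      one_mem' := by
        show fP 1 = fA 1
        rw [hfP1, hfA1]
      mul_mem' := by
        intro a b (ha : fP a.1 = fA a.2) (hb : fP b.1 = fA b.2)
        show fP (a.1 * b.1) = fA (a.2 * b.2)
        rw [hfP, hfA, ha, hb]
      inv_mem' := by
        intro a (ha : fP a.1 = fA a.2)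
        show fP a.1⁻¹ = fA a.2⁻¹
        rw [hfPinv, hfAinv, ha] }
  let D : Subgroup (P × A) :=
    { carrier := {z | z.1 ∈ ZP ∧ z.2 ∈ ZA ∧ tP z.1 = tA z.2}
      one_mem' := ⟨ZP.one_mem, ZA.one_mem, by show tP 1 = tA 1; rw [htP1, htA1]⟩
      mul_mem' := by
        rintro a b ⟨ha1, ha2, ha3⟩ ⟨hb1, hb2, hb3⟩
        refine ⟨ZP.mul_mem ha1 hb1, ZA.mul_mem ha2 hb2, ?_⟩
        show tP (a.1 * b.1) = tA (a.2 * b.2)
        rw [htP _ ha1 _ hb1, htA _ ha2 _ hb2, ha3, hb3]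
      inv_mem' := by
        rintro a ⟨ha1, ha2, ha3⟩
        refine ⟨ZP.inv_mem ha1, ZA.inv_mem ha2, ?_⟩
        show tP a.1⁻¹ = tA a.2⁻¹
        rw [htPinv _ ha1, htAinv _ ha2, ha3] }
  let Z' : Subgroup (P × A) :=
    { carrier := {z | z.1 ∈ ZP ∧ z.2 = 1}
      one_mem' := ⟨ZP.one_mem, rfl⟩
      mul_mem' := by
        rintro a b ⟨ha1, ha2⟩ ⟨hb1, hb2⟩
        refine ⟨ZP.mul_mem ha1 hb1, ?_⟩
        show a.2 * b.2 = 1
        rw [ha2, hb2, one_mul]
      inv_mem' := by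
        rintro a ⟨ha1, ha2⟩
        refine ⟨ZP.inv_mem ha1, ?_⟩
        show a.2⁻¹ = 1
        rw [ha2, inv_one] }
  have hDE : D ≤ E := by
    rintro z ⟨h1, h2, -⟩
    show fP z.1 = fA z.2
    rw [(hfPk _).mpr h1, (hfAk _).mpr h2]
  have hZE : Z' ≤ E := by
    rintro z ⟨h1, h2⟩
    show fP z.1 = fA z.2
    rw [(hfPk _).mpr h1, h2, hfA1]
  have hDc : ∀ d ∈ D, ∀ g : P × A, g * d = d * g := by
    rintro d ⟨h1, h2, -⟩ g
    exact Prod.ext (hZPc _ h1 _) (hZAc _ h2 _)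
  have hsqE : ∀ e ∈ E, e * e ∈ D := by
    intro e he
    exact ⟨hsqP _, hsqA _, hsq _ _ he⟩
  have hDZ : ∀ z ∈ D, z ∈ Z' → z = 1 := by
    rintro z ⟨h1, h2, h3⟩ ⟨h4, h5⟩
    rw [h5, htA1] at h3
    exact Prod.ext (htPi _ h1 h3) h5
  obtain ⟨C, hDC, hCE, hCZ, hCov⟩ := exists_complement E D Z' hDE hZE hDc hsqE hDZ
  have hmemE : ∀ p a, fP p = fA a → ((p, a) : P × A) ∈ E := fun p a h => h
  have hpiC : ∀ (p : P) (a₀ : A), fP p = fA a₀ → ∃ ω ∈ ZP, ((p * ω, a₀) : P × A) ∈ C := by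
    intro p a₀ h
    obtain ⟨z, ⟨hz1, hz2⟩, hzC⟩ := hCov _ (hmemE p a₀ h)
    refine ⟨z.1, hz1, ?_⟩
    have : ((p, a₀) : P × A) * z = (p * z.1, a₀) := by
      ext
      · rfl
      · show a₀ * z.2 = a₀
        rw [hz2, mul_one]
    rwa [this] at hzC
  have hex : ∀ p : P, ∃ a : A, ((p, a) : P × A) ∈ C := by
    intro p
    obtain ⟨a₀, ha₀⟩ := hfAs (fP p)
    obtain ⟨ω, hω, hC⟩ := hpiC p a₀ ha₀.symm
    obtain ⟨b, hb, hbt⟩ := htAs (tP ω⁻¹)
    have hd : ((ω⁻¹, b) : P × A) ∈ C := hDC ⟨ZP.inv_mem hω, hb, hbt.symm⟩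
    refine ⟨a₀ * b, ?_⟩
    have := C.mul_mem hC hd
    have h2 : ((p * ω, a₀) : P × A) * (ω⁻¹, b) = (p, a₀ * b) := by
      ext
      · show p * ω * ω⁻¹ = p
        group
      · rfl
    rwa [h2] at this
  have huniq : ∀ (p : P) (a a' : A), ((p, a) : P × A) ∈ C → ((p, a') : P × A) ∈ C → a = a' := by
    intro p a a' h h'
    have h1 : ((1, a⁻¹ * a') : P × A) ∈ C := by
      have := C.mul_mem (C.inv_mem h) h'
      have h2 : ((p, a) : P × A)⁻¹ * (p, a') = (1, a⁻¹ * a') := by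
        ext
        · show p⁻¹ * p = 1
          group
        · rfl
      rwa [h2] at this
    have h2 : a⁻¹ * a' ∈ ZA := by
      have h3 : fP 1 = fA (a⁻¹ * a') := hCE h1
      rw [hfP1] at h3
      exact (hfAk _).mp h3.symm
    obtain ⟨ω, hω, hωt⟩ := htPs (tA (a⁻¹ * a'))
    have hd : ((ω, a⁻¹ * a') : P × A) ∈ C := hDC ⟨hω, h2, hωt⟩
    have h3 : ((ω, 1) : P × A) ∈ C := by
      have := C.mul_mem hd (C.inv_mem h1)
      have h4 : ((ω, a⁻¹ * a') : P × A) * (1, a⁻¹ * a')⁻¹ = (ω, 1) := by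
        ext
        · show ω * 1⁻¹ = ω
          group
        · show (a⁻¹ * a') * (a⁻¹ * a')⁻¹ = 1
          group
      rwa [h4] at this
    have h4 := hCZ _ h3 ⟨hω, rfl⟩
    have h5 : ω = 1 := congrArg Prod.fst h4
    rw [h5, htP1] at hωt
    have h6 := htAi _ h2 hωt.symm
    have : a' = a * (a⁻¹ * a') := by group
    rw [this, h6, mul_one]
  choose Ψ hΨ using hex
  have hmul : ∀ p q, Ψ (p * q) = Ψ p * Ψ q := by
    intro p q
    apply huniq (p * q) _ _ (hΨ _)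
    have := C.mul_mem (hΨ p) (hΨ q)
    exact this
  let Ψh : P →* A := MonoidHom.mk' Ψ hmul
  have hinj : Function.Injective Ψh := by
    rw [injective_iff_map_eq_one]
    intro p hp
    have hp' : Ψ p = 1 := hp
    have h1 : ((p, 1) : P × A) ∈ C := by
      have := hΨ p
      rwa [hp'] at this
    have h2 : fP p = fA 1 := hCE h1
    rw [hfA1] at h2
    have h3 := hCZ _ h1 ⟨(hfPk _).mp h2, rfl⟩
    exact congrArg Prod.fst h3
  have hsurj : Function.Surjective Ψh := by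
    intro a
    obtain ⟨p₀, hp₀⟩ := hfPs (fA a)
    obtain ⟨ω, hω, hC⟩ := hpiC p₀ a hp₀
    exact ⟨p₀ * ω, huniq _ _ _ (hΨ _) hC⟩
  exact ⟨MulEquiv.ofBijective Ψh ⟨hinj, hsurj⟩⟩

end Cfsg.Agent.Lib.PGroup.SuzukiTwo
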