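import Mathlib
import Cfsg.Agent.Lib.PGroup.SuzukiTwo.Mono

/-!
# Equivariant quadratic maps on a finite field
-/

set_option autoImplicit false
set_option linter.style.haveILetI false
set_option linter.unusedSectionVars false
set_option linter.unusedVariables false

namespace Cfsg.Agent.Lib.PGroup.SuzukiTwo

variable {F : Type*} [Field F] [Fintype F] [CharP F 2]

theorem frob_pow_apply (k : ℕ) (x : F) : ((frobeniusEquiv F 2) ^ k) x = x ^ (2 ^ k) := by
  induction k with
  | zero => simp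
  | succ k ih =>
    rw [pow_succ', RingAut.mul_apply, ih, frobeniusEquiv_def, ← pow_mul, pow_succ]

/-- In the even order case there are nontrivial elements of "norm" one. -/
theorem exists_norm_one {m : ℕ} (hm : Fintype.card F = 2 ^ m) (hm0 : m ≠ 0)
    (h3 : 3 ≤ Fintype.card F) {l : F} (hl : IsPrim l) (φ : F ≃+* F) (hev : Even (orderOf φ)) :
    ∃ y : F, y ≠ 1 ∧ y * φ y = 1 := by
  classical
  obtain ⟨d, hdm, hd⟩ := aut_eq_pow hm hm0 φ
  set Fr := frobeniusEquiv F 2 with hFr
  have hφ : φ = Fr ^ d := by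
    ext x
    rw [hd, hFr, frob_pow_apply]
  have hl0 : l ≠ 0 := hl.ne_zero h3
  have hord := hl.orderOf_eq h3
  rw [hm] at hord
  have hq1 : 0 < 2 ^ m - 1 := by
    rw [← hm]
    omega
  have hlq : l ^ (2 ^ m - 1) = 1 := by
    rw [← hord]
    exact pow_orderOf_eq_one l
  -- the order of Frobenius
  have hordFr : orderOf Fr = m := by
    have h1 : Fr ^ m = 1 := by
      ext x
      rw [hFr, frob_pow_apply, ← hm, FiniteField.pow_card]
      rfl
    have h2 : orderOf Fr ∣ m := orderOf_dvd_of_pow_eq_one h1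
    have hpos : 0 < orderOf Fr := Nat.pos_of_dvd_of_pos h2 (Nat.pos_of_ne_zero hm0)
    have h4 : l ^ (2 ^ orderOf Fr) = l := by
      have := frob_pow_apply (F := F) (orderOf Fr) l
      rw [← hFr, pow_orderOf_eq_one] at this
      exact this.symm
    have h5 : l ^ (2 ^ orderOf Fr - 1) = 1 := by
      have h6 : l ^ (2 ^ orderOf Fr - 1) * l = 1 * l := by
        rw [← pow_succ, Nat.sub_add_cancel Nat.one_le_two_pow, h4, one_mul]
      exact mul_right_cancel₀ hl0 h6
    have h6 : orderOf l ∣ 2 ^ orderOf Fr - 1 := orderOf_dvd_of_pow_eq_one h5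
    rw [hord] at h6
    have h7 : 0 < 2 ^ orderOf Fr - 1 := by
      have : 2 ^ 1 ≤ 2 ^ orderOf Fr := Nat.pow_le_pow_right (by norm_num) hpos
      omega
    have h8 := Nat.le_of_dvd h7 h6
    have h9 : 2 ^ m ≤ 2 ^ orderOf Fr := by
      have : 1 ≤ 2 ^ orderOf Fr := Nat.one_le_two_pow
      have : 1 ≤ 2 ^ m := Nat.one_le_two_pow
      omega
    have h10 := (Nat.pow_le_pow_iff_right (by norm_num : 1 < 2)).mp h9
    exact Nat.le_antisymm (Nat.le_of_dvd (Nat.pos_of_ne_zero hm0) h2) h10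
  -- `d ≠ 0`
  have hd0 : d ≠ 0 := by
    rintro rfl
    rw [hφ, pow_zero, orderOf_one] at hev
    exact (by decide : ¬ Even 1) hev
  -- the gcd
  set g := Nat.gcd m d with hg
  have hgpos : 0 < g := Nat.gcd_pos_of_pos_left _ (Nat.pos_of_ne_zero hm0)
  have hoφ : orderOf φ = m / g := by
    rw [hφ, orderOf_pow' _ hd0, hordFr]
  rw [hoφ] at hev
  obtain ⟨m₁, hm₁⟩ : ∃ m₁, m = g * m₁ := Nat.gcd_dvd_left m d
  obtain ⟨d₁, hd₁⟩ : ∃ d₁, d = g * d₁ := Nat.gcd_dvd_right m d
  have hm₁' : m / g = m₁ := by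
    rw [hm₁]
    exact Nat.mul_div_cancel_left _ hgpos
  have hcop : Nat.Coprime m₁ d₁ := by
    have := Nat.coprime_div_gcd_div_gcd (m := m) (n := d) hgpos
    rw [← hg, hm₁'] at this
    have h2 : d / g = d₁ := by
      rw [hd₁]
      exact Nat.mul_div_cancel_left _ hgpos
    rwa [h2] at this
  rw [hm₁'] at hev
  have hd₁odd : Odd d₁ := by
    by_contra h
    rw [Nat.not_odd_iff_even] at h
    have h2 : 2 ∣ Nat.gcd m₁ d₁ := Nat.dvd_gcd hev.two_dvd h.two_dvd
    rw [hcop] at h2
    omega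
  set D := 2 ^ g + 1 with hD
  have hD3 : 3 ≤ D := by
    have : 2 ^ 1 ≤ 2 ^ g := Nat.pow_le_pow_right (by norm_num) hgpos
    omega
  have hDd : D ∣ 2 ^ d + 1 := by
    have := Odd.nat_add_dvd_pow_add_pow (2 ^ g) 1 hd₁odd
    rwa [one_pow, ← pow_mul, ← hd₁] at this
  have hDm : D ∣ 2 ^ m - 1 := by
    obtain ⟨m₂, hm₂⟩ := hev.two_dvd
    have h1 : m = (g + g) * m₂ := by
      rw [hm₁, hm₂]
      ring
    have h2 : 2 ^ (g + g) - 1 ∣ 2 ^ ((g + g) * m₂) - 1 :=
      Nat.pow_sub_one_dvd_pow_sub_one 2 (Dvd.intro _ rfl)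
    rw [← h1] at h2
    have h4 : 2 ^ (g + g) - 1 = (2 ^ g + 1) * (2 ^ g - 1) := by
      have h5 : 1 ≤ 2 ^ g := Nat.one_le_two_pow
      obtain ⟨a, ha⟩ : ∃ a, 2 ^ g = a + 1 := ⟨2 ^ g - 1, by omega⟩
      rw [pow_add, ha]
      simp only [Nat.add_sub_cancel]
      have : (a + 1) * (a + 1) = (a + 1 + 1) * a + 1 := by ring
      rw [this, Nat.add_sub_cancel]
    rw [h4] at h2
    exact (Dvd.intro _ rfl).trans h2
  obtain ⟨k, hk⟩ := hDm
  have hkpos : 0 < k := by
    rcases Nat.eq_zero_or_pos k with rfl | h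
    · simp at hk
      omega
    · exact h
  have hklt : k < 2 ^ m - 1 := by
    rw [hk]
    nlinarith
  obtain ⟨e, he⟩ := hDd
  refine ⟨l ^ k, ?_, ?_⟩
  · intro h
    have := orderOf_dvd_of_pow_eq_one h
    rw [hord] at this
    have := Nat.le_of_dvd hkpos this
    omega
  · rw [hd, ← pow_mul, ← pow_add]
    have : k + k * 2 ^ d = (D * k) * e := by
      calc k + k * 2 ^ d = k * (2 ^ d + 1) := by ring
        _ = k * (D * e) := by rw [he]
        _ = _ := by ring
    rw [this, pow_mul, ← hk, hlq, one_pow]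

/-- **Structure of an equivariant quadratic map.** -/
theorem quad_form {m : ℕ} (hm : Fintype.card F = 2 ^ m) (hm0 : m ≠ 0)
    (h3 : 3 ≤ Fintype.card F) {μ l : F} (hμ : IsPrim μ) (hl : IsPrim l)
    (Q : F → F) (b : F →+ F →+ F) (hpol : ∀ u w, Q (u + w) = Q u + Q w + b u w)
    (hQμ : ∀ u, Q (μ * u) = l * Q u) (hb : ∃ u w, b u w ≠ 0) (hani : ∀ u, u ≠ 0 → Q u ≠ 0) :
    ∃ (c : F) (σ φ : F ≃+* F), c ≠ 0 ∧ φ ≠ RingEquiv.refl F ∧ Odd (orderOf φ) ∧
      ∀ u, Q u = c * (σ u * φ (σ u)) := by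
  classical
  have hfin : Finite (F ≃+* F) :=
    Finite.of_injective (fun σ : F ≃+* F => (σ : F → F)) DFunLike.coe_injective
  let _ : Fintype (F ≃+* F) := Fintype.ofFinite _
  have h2 : (2 : F) = 0 := CharTwo.two_eq_zero
  have hbμ : ∀ u w, b (μ * u) (μ * w) = l * b u w := by
    intro u w
    have e1 := hpol (μ * u) (μ * w)
    rw [← mul_add, hQμ, hQμ, hQμ, hpol] at e1
    linear_combination -e1
  obtain ⟨c, hc, hw⟩ := expand_weights μ μ l b hbμ
  have hQ0 : Q 0 = 0 := by
    have := hpol 0 0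
    rw [add_zero, map_zero] at this
    simp only [AddMonoidHom.zero_apply, add_zero] at this
    linear_combination -this
  have hbuu : ∀ u, b u u = 0 := by
    intro u
    have := hpol u u
    rw [CharTwo.add_self_eq_zero, hQ0] at this
    linear_combination -this - Q u * h2
  obtain ⟨p₀, hp₀⟩ : ∃ p, c p ≠ 0 := by
    by_contra hall
    push Not at hall
    obtain ⟨u, w, huw⟩ := hb
    apply huw
    rw [hc]
    simp [hall]
  set σ := p₀.1 with hσ
  set τ := p₀.2 with hτ
  have hw₀ : σ μ * τ μ = l := hw p₀ hp₀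
  have hother : ∀ p, c p ≠ 0 → p = p₀ ∨ p = (τ, σ) := by
    intro p hp
    have h1 := hw p hp
    rw [← hw₀] at h1
    rcases two_pow_field hm hm0 h3 hμ h1 with ⟨e1, e2⟩ | ⟨e1, e2⟩
    · left
      exact Prod.ext e1 e2
    · right
      exact Prod.ext e1 e2
  have hne : σ ≠ τ := by
    intro hst
    have hall : ∀ p, c p ≠ 0 → p = p₀ := by
      intro p hp
      rcases hother p hp with h | h
      · exact h
      · rw [h, ← hst]
        exact Prod.ext rfl hst
    have e1 := hc 1 1
    rw [Finset.sum_eq_single p₀] at e1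
    · simp only [map_one, mul_one, hbuu] at e1
      exact hp₀ e1.symm
    · intro p _ hp
      by_cases h0 : c p = 0
      · rw [h0, zero_mul]
      · exact absurd (hall p h0) hp
    · simp
  set p₁ : (F ≃+* F) × (F ≃+* F) := (τ, σ) with hp₁
  have hp₀₁ : p₀ ≠ p₁ := by
    intro h
    exact hne (congrArg Prod.fst h)
  have hexp : ∀ u w, b u w = c p₀ * (σ u * τ w) + c p₁ * (τ u * σ w) := by
    intro u w
    rw [hc, Finset.sum_eq_add p₀ p₁ hp₀₁]
    · intro p _ hp
      by_cases h0 : c p = 0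
      · rw [h0, zero_mul]
      · rcases hother p h0 with h | h
        · exact absurd h hp.1
        · exact absurd h hp.2
    · intro h; exact absurd (Finset.mem_univ _) h
    · intro h; exact absurd (Finset.mem_univ _) h
  have hc₁ : c p₁ = c p₀ := by
    have e1 := hexp 1 1
    rw [hbuu] at e1
    simp only [map_one, mul_one] at e1
    linear_combination -e1 - c p₀ * h2
  set c₀ := c p₀ with hc₀
  rw [hc₁] at hexp
  -- the additive part vanishes
  let A : F → F := fun u => Q u + c₀ * (σ u * τ u)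
  have hAadd : ∀ u w, A (u + w) = A u + A w := by
    intro u w
    simp only [A]
    rw [hpol, hexp, map_add, map_add]
    linear_combination (c₀ * σ u * τ w + c₀ * τ u * σ w) * h2
  have hAμ : ∀ u, A (μ * u) = l * A u := by
    intro u
    simp only [A]
    rw [hQμ, map_mul, map_mul, ← hw₀]
    ring
  let b' : F →+ F →+ F := AddMonoidHom.mk'
    (fun x => AddMonoidHom.mk' (fun y => A x * y) (fun y y' => mul_add _ _ _))
    (by
      intro x x'
      ext y
      show A (x + x') * y = A x * y + A x' * y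
      rw [hAadd, add_mul])
  have hb' : ∀ x y, b' x y = A x * y := fun _ _ => rfl
  obtain ⟨c', hc', hw'⟩ := expand_weights μ 1 l b' (by
    intro x y
    rw [hb', hb', hAμ, one_mul]
    ring)
  have hc'0 : ∀ p, c' p = 0 := by
    intro p
    by_contra hp
    have h1 := hw' p hp
    rw [map_one, mul_one] at h1
    -- squares
    let Fr := frobeniusEquiv F 2
    have e1 : (σ.trans Fr) μ * (τ.trans Fr) μ = p.1 μ * p.1 μ := by
      show Fr (σ μ) * Fr (τ μ) = _
      rw [← map_mul, hw₀, h1, frobeniusEquiv_def, pow_two]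
    have e2 : σ.trans Fr = τ.trans Fr := by
      rcases two_pow_field hm hm0 h3 hμ e1 with ⟨e3, e4⟩ | ⟨e3, e4⟩ <;> rw [e3, e4]
    apply hne
    ext x
    have := congrArg (fun f : F ≃+* F => f x) e2
    exact Fr.injective this
  have hA0 : ∀ u, A u = 0 := by
    intro u
    have := hc' u 1
    rw [hb', mul_one] at this
    rw [this]
    simp [hc'0]
  have hQeq : ∀ u, Q u = c₀ * (σ u * τ u) := by
    intro u
    have := hA0 u
    simp only [A] at this
    linear_combination this - c₀ * (σ u * τ u) * h2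
  let φ : F ≃+* F := σ.symm.trans τ
  have hφσ : ∀ u, φ (σ u) = τ u := by
    intro u
    simp [φ]
  have hφne : φ ≠ RingEquiv.refl F := by
    intro h
    apply hne
    ext x
    have := hφσ x
    rw [h] at this
    exact this
  refine ⟨c₀, σ, φ, hp₀, hφne, ?_, ?_⟩
  · by_contra hodd
    rw [Nat.not_odd_iff_even] at hodd
    obtain ⟨y, hy1, hy2⟩ := exists_norm_one hm hm0 h3 hl φ hodd
    have hy0 : y ≠ 0 := by
      rintro rfl
      simp at hy2
    set u := σ.symm y with hu
    have hσu : σ u = y := by simp [hu]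
    have hu0 : u ≠ 0 := by
      intro h
      rw [h, map_zero] at hσu
      exact hy0 hσu.symm
    have hQu : Q u = c₀ := by
      rw [hQeq, ← hφσ u, hσu, hy2, mul_one]
    have hQ1 : Q 1 = c₀ := by
      rw [hQeq]
      simp
    obtain ⟨n, hn⟩ := hμ u hu0
    have hQpow : ∀ k : ℕ, Q (μ ^ k) = l ^ k * Q 1 := by
      intro k
      induction k with
      | zero => simp
      | succ k ih =>
        rw [pow_succ', hQμ, ih, pow_succ']
        ring
    have e1 : l ^ n * c₀ = 1 * c₀ := by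
      rw [one_mul, ← hQ1, ← hQpow, ← hn]
      rw [hQ1, hQu]
    have e2 : l ^ n = 1 := mul_right_cancel₀ hp₀ e1
    have e3 : orderOf l ∣ n := orderOf_dvd_of_pow_eq_one e2
    rw [hl.orderOf_eq h3, ← hμ.orderOf_eq h3] at e3
    have e4 : μ ^ n = 1 := orderOf_dvd_iff_pow_eq_one.mp e3
    rw [e4] at hn
    apply hy1
    rw [← hσu, hn, map_one]
  · intro u
    rw [hφσ]
    exact hQeq u

end Cfsg.Agent.Lib.PGroup.SuzukiTwo
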