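import Mathlib
import Cfsg.Prelude.Def_LieRecognition

/-!
# The groups of type A
-/

set_option autoImplicit false
set_option linter.style.haveILetI false
set_option linter.unusedSectionVars false
set_option linter.unusedVariables false

namespace Cfsg.Agent.Lib.PGroup.SuzukiTwo

variable {F : Type*} [Field F] (φ : F →+* F)

/-- The matrix with coordinates `x, y`. -/
def matA (x y : F) : Matrix (Fin 3) (Fin 3) F := !![1, 0, 0; x, 1, 0; y, φ x, 1]

theorem matA_mul (x y x' y' : F) :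
    matA φ x y * matA φ x' y' = matA φ (x + x') (y + y' + φ x * x') := by
  ext i j
  fin_cases i <;> fin_cases j <;>
    simp [matA, Matrix.mul_apply, Fin.sum_univ_three, map_add] <;> ring

theorem matA_zero : matA φ 0 0 = 1 := by
  ext i j
  fin_cases i <;> fin_cases j <;> simp [matA]

/-- The matrix as a unit. -/
def glA (x y : F) : GL (Fin 3) F where
  val := matA φ x y
  inv := matA φ (-x) (-y + φ x * x)
  val_inv := by
    rw [matA_mul, ← matA_zero φ]
    congr 1
    · ring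
    · ring
  inv_val := by
    rw [matA_mul, ← matA_zero φ]
    congr 1
    · ring
    · simp

theorem glA_val (x y : F) : ((glA φ x y : GL (Fin 3) F) : Matrix (Fin 3) (Fin 3) F) = matA φ x y := rfl

theorem glA_mul (x y x' y' : F) :
    glA φ x y * glA φ x' y' = glA φ (x + x') (y + y' + φ x * x') := by
  apply Units.ext
  exact matA_mul φ x y x' y'

theorem glA_one : (1 : GL (Fin 3) F) = glA φ 0 0 := by
  apply Units.ext
  exact (matA_zero φ).symm

theorem glA_inv (x y : F) : (glA φ x y)⁻¹ = glA φ (-x) (-y + φ x * x) := by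
  rw [inv_eq_iff_mul_eq_one, glA_mul, glA_one]
  congr 1
  · ring
  · ring

theorem mem_typeA_iff (g : GL (Fin 3) F) :
    g ∈ Cfsg.suzukiTypeA F φ ↔ ∃ x y, g = glA φ x y := by
  constructor
  · intro hg
    induction hg using Subgroup.closure_induction with
    | mem g hg =>
      obtain ⟨x, y, h⟩ := hg
      exact ⟨x, y, Units.ext h⟩
    | one => exact ⟨0, 0, glA_one φ⟩
    | mul a b _ _ ha hb =>
      obtain ⟨x, y, rfl⟩ := ha
      obtain ⟨x', y', rfl⟩ := hb
      exact ⟨_, _, glA_mul φ _ _ _ _⟩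
    | inv a _ ha =>
      obtain ⟨x, y, rfl⟩ := ha
      exact ⟨_, _, glA_inv φ _ _⟩
  · rintro ⟨x, y, rfl⟩
    exact Subgroup.subset_closure ⟨x, y, rfl⟩

theorem glA_mem (x y : F) : glA φ x y ∈ Cfsg.suzukiTypeA F φ :=
  (mem_typeA_iff φ _).mpr ⟨x, y, rfl⟩

theorem glA_inj {x y x' y' : F} (h : glA φ x y = glA φ x' y') : x = x' ∧ y = y' := by
  have h1 := congrArg (fun g : GL (Fin 3) F => (g : Matrix (Fin 3) (Fin 3) F) 1 0) h
  have h2 := congrArg (fun g : GL (Fin 3) F => (g : Matrix (Fin 3) (Fin 3) F) 2 0) h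
  simpa [glA_val, matA] using And.intro h1 h2

/-- The coordinates of an element. -/
noncomputable def xc (a : Cfsg.suzukiTypeA F φ) : F := (a.1 : Matrix (Fin 3) (Fin 3) F) 1 0
noncomputable def yc (a : Cfsg.suzukiTypeA F φ) : F := (a.1 : Matrix (Fin 3) (Fin 3) F) 2 0

theorem coe_eq (a : Cfsg.suzukiTypeA F φ) : a.1 = glA φ (xc φ a) (yc φ a) := by
  obtain ⟨x, y, h⟩ := (mem_typeA_iff φ a.1).mp a.2
  have h1 : xc φ a = x := by
    simp [xc, h, glA_val, matA]
  have h2 : yc φ a = y := by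
    simp [yc, h, glA_val, matA]
  rw [h1, h2, h]

theorem xc_mk (x y : F) : xc φ ⟨glA φ x y, glA_mem φ x y⟩ = x := by
  simp [xc, glA_val, matA]

theorem yc_mk (x y : F) : yc φ ⟨glA φ x y, glA_mem φ x y⟩ = y := by
  simp [yc, glA_val, matA]

theorem xc_mul (a b : Cfsg.suzukiTypeA F φ) : xc φ (a * b) = xc φ a + xc φ b := by
  have h : (a * b).1 = glA φ (xc φ a + xc φ b) (yc φ a + yc φ b + φ (xc φ a) * xc φ b) := by
    show a.1 * b.1 = _
    rw [coe_eq φ a, coe_eq φ b, glA_mul]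
  show ((a * b).1 : Matrix (Fin 3) (Fin 3) F) 1 0 = _
  rw [h]
  simp [glA_val, matA]

theorem yc_mul (a b : Cfsg.suzukiTypeA F φ) :
    yc φ (a * b) = yc φ a + yc φ b + φ (xc φ a) * xc φ b := by
  have h : (a * b).1 = glA φ (xc φ a + xc φ b) (yc φ a + yc φ b + φ (xc φ a) * xc φ b) := by
    show a.1 * b.1 = _
    rw [coe_eq φ a, coe_eq φ b, glA_mul]
  show ((a * b).1 : Matrix (Fin 3) (Fin 3) F) 2 0 = _
  rw [h]
  simp [glA_val, matA]

theorem typeA_ext {a b : Cfsg.suzukiTypeA F φ} (h1 : xc φ a = xc φ b) (h2 : yc φ a = yc φ b) :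
    a = b := by
  apply Subtype.ext
  rw [coe_eq φ a, coe_eq φ b, h1, h2]

end Cfsg.Agent.Lib.PGroup.SuzukiTwo
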